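import Cfsg.Agent.Lib.SymSub.HallB
import Cfsg.Agent.S3878

/-!
# Hall subgroups of symmetric and alternating groups: existence and conjugacy
-/

set_option autoImplicit false

namespace CfsgLib.SymSub

open Equiv Finset Subgroup MulAction Cfsg CfsgLib.Coprime
open scoped Pointwise Nat

theorem isDPiGroup_triv {G : Type} [Group G] [Finite G] {π : Set ℕ}
    (h : (∀ r s : ℕ, r.Prime → s.Prime → r ∈ π → s ∈ π → r ∣ Nat.card G → s ∣ Nat.card G → r = s) ∨
      ∀ r : ℕ, r.Prime → r ∣ Nat.card G → r ∈ π) : IsDPiGroup π G := by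
  have key : ∀ π' : Set ℕ, (∀ r, r ∣ Nat.card G → (r ∈ π ↔ r ∈ π')) → IsDPiGroup π' G → IsDPiGroup π G :=
    fun π' h h' => by
      rwa [IsDPiGroup, show IsPiSubgroup (G := G) π = IsPiSubgroup π' from funext fun K => propext
        (forall₃_congr fun p _ hp => h p (hp.trans K.card_subgroup_dvd_card))]
  rcases h with h | h
  · exact key {r | r ∈ π ∧ r ∣ Nat.card G} (fun r hr => (and_iff_left hr).symm)
      (Agent.S3878.sufficiency _ (.inl fun p q hp hq a b => h p q hp hq a.1 b.1 a.2 b.2) G)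
  · exact key {r | r ∣ Nat.card G → r ∈ π} (fun r hr => ⟨fun h _ => h, fun h => h hr⟩)
      (Agent.S3878.sufficiency _ (.inr h) G)

theorem isCPiGroup_of_D {G : Type} [Group G] [Finite G] {π : Set ℕ} (h : IsDPiGroup π G) : IsCPiGroup π G :=
  have key : ∀ H : Subgroup G, IsPiHall π H → Maximal (IsPiSubgroup π) H := fun _ hH =>
    ⟨hH.1, fun _ hK hle => (eq_of_isPiHall_le hH hle hK).le⟩
  ⟨Agent.S3878.eOfD π G h, fun H K hH hK => h H K (key H hH) (key K hK)⟩

variable {α : Type} [Fintype α] [DecidableEq α] {π : Set ℕ}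

theorem HCond.unique {n k l : ℕ} (h : HCond n π k) (h' : HCond n π l) : k = l := by
  have h8 : ¬ Nat.Prime 8 := by norm_num
  rcases h with ⟨h1, h2, rfl⟩ | ⟨h1, h2⟩ <;> rcases h' with ⟨h3, h4, rfl⟩ | ⟨h3, h4⟩
  · rfl
  · rcases h3 with ⟨rfl, -⟩ | ⟨rfl, -⟩
    · simpa using (h4 5 Nat.prime_five (by norm_num)).1 ((h2 5 Nat.prime_five (by norm_num)).2 (by norm_num))
    · exact absurd h1 h8
  · rcases h1 with ⟨rfl, -⟩ | ⟨rfl, -⟩
    · simpa using (h2 5 Nat.prime_five (by norm_num)).1 ((h4 5 Nat.prime_five (by norm_num)).2 (by norm_num))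
    · exact absurd h3 h8
  · omega

theorem isPiHall_pairStab {s : Finset α} (h : HCond (Fintype.card α) π #s) (hn : 3 ≤ Fintype.card α) :
    IsPiHall π (pairStab s) := by
  have h0 := (pairStab s).card_mul_index
  rw [Nat.card_perm, Nat.card_eq_fintype_card (α := α)] at h0
  rcases h with ⟨h1, h2, h3⟩ | ⟨h1, h2⟩
  · have h4 := index_pairStab.1 (show 2 * #s ≠ _ by omega)
    rw [h3, Nat.choose_one_right] at h4
    rw [h4, ← Nat.mul_factorial_pred h1.pos.ne', mul_comm, Nat.mul_right_inj h1.pos.ne'] at h0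
    refine ⟨fun p hp h => ?_, fun p hp hπ h => ?_⟩
    · have := (hp.dvd_factorial).1 (h0 ▸ h)
      exact (h2 p hp (by omega)).2 (by omega)
    · have := (Nat.prime_dvd_prime_iff_eq hp h1).1 (h4 ▸ h)
      exact ((h2 p hp this.le).1 hπ).ne this
  · rw [index_pairStab' h1] at h0
    refine ⟨fun p hp h => ?_, fun p hp hπ h => ?_⟩
    · have h3 : Nat.card (pairStab s) ∣ 6 ^ 7 := by
        have : Nat.card (pairStab s) = 144 ∨ Nat.card (pairStab s) = 1152 := by
          rcases h1 with ⟨h1, -⟩ | ⟨h1, -⟩ <;> simp only [h1, Nat.factorial] at h0 <;> omega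
        rcases this with h | h <;> rw [h] <;> norm_num
      have h4 := hp.dvd_of_dvd_pow (h.trans h3)
      have := Nat.le_of_dvd (by norm_num) h4
      refine (h2 p hp (by omega)).2 ?_
      interval_cases p <;> first | omega | norm_num at hp
    · rw [index_pairStab' h1] at h
      have h3 := (Nat.Prime.dvd_mul hp (m := 5) (n := 7)).1 h
      simp only [Nat.prime_dvd_prime_iff_eq hp Nat.prime_five, Nat.prime_dvd_prime_iff_eq hp (by norm_num :
        Nat.Prime 7)] at h3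
      have := (h2 p hp (by omega)).1 hπ
      omega

theorem pairStab_smul (g : Perm α) (s : Finset α) :
    pairStab (g • s) = (pairStab s).map (MulAut.conj g).toMonoidHom := by
  ext x
  rw [Subgroup.mem_map_equiv]
  change _ ∨ _ ↔ _ ∨ _
  simp [mul_smul, inv_smul_eq_iff, smul_finset_compl]

theorem hall_alt {M : Subgroup (Perm α)} (h : IsPiHall π M) : IsPiHall π (M.subgroupOf (alternatingGroup α)) := by
  simpa using (isPiHallOf_iff_subgroupOf inf_le_right).1 (isPiHallOf_inf_of_normal h (alternatingGroup α))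

theorem hall_struct_alt {M : Subgroup (alternatingGroup α)} (h : IsPiHall π M)
    (h2 : ∃ r s : ℕ, r.Prime ∧ s.Prime ∧ r ≠ s ∧ r ∈ π ∧ s ∈ π ∧ r ≤ Fintype.card α ∧ s ≤ Fintype.card α)
    (hns : ∃ r : ℕ, r.Prime ∧ r ≤ Fintype.card α ∧ r ∉ π) : 3 ≤ Fintype.card α ∧
    ∃ s : Finset α, M = (pairStab s).subgroupOf _ ∧ HCond (Fintype.card α) π #s := by
  have h1 := isPiHallOf_map_subtype.2 h
  obtain ⟨s, hs, h3⟩ := hall_struct h1.2.1 h1.2.2 h2 hns
  have hn : 3 ≤ Fintype.card α := by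
    obtain ⟨r, s, hr, hs, _, _, _, _, _⟩ := h2
    have := hr.two_le
    have := hs.two_le
    omega
  exact ⟨hn, s, (eq_of_isPiHall_le h (map_le_iff_le_comap.1 hs) (hall_alt (isPiHall_pairStab h3 hn)).1).symm, h3⟩

theorem hall_cases (α : Type) [Fintype α] [DecidableEq α] (π : Set ℕ) :
    (IsDPiGroup π (Perm α) ∧ IsDPiGroup π (alternatingGroup α)) ∨
    ((∃ r s : ℕ, r.Prime ∧ s.Prime ∧ r ≠ s ∧ r ∈ π ∧ s ∈ π ∧ r ≤ Fintype.card α ∧ s ≤ Fintype.card α) ∧
      ∃ r : ℕ, r.Prime ∧ r ≤ Fintype.card α ∧ r ∉ π) := by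
  refine (em _).symm.imp_left fun h => ?_
  have h1 : ∀ r, r.Prime → r ∣ Nat.card (Perm α) → r ≤ Fintype.card α := fun r hr h => by
    rwa [Nat.card_perm, hr.dvd_factorial, Nat.card_eq_fintype_card] at h
  have h2 := fun r hr (h : r ∣ Nat.card (alternatingGroup α)) => h1 r hr (h.trans (card_subgroup_dvd_card _))
  rcases not_and_or.1 h with h | h
  · exact ⟨isDPiGroup_triv (.inl fun r s hr hs a b c d => by_contra fun e =>
      h ⟨r, s, hr, hs, e, a, b, h1 r hr c, h1 s hs d⟩), isDPiGroup_triv (.inl fun r s hr hs a b c d =>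
      by_contra fun e => h ⟨r, s, hr, hs, e, a, b, h2 r hr c, h2 s hs d⟩)⟩
  · exact ⟨isDPiGroup_triv (.inr fun r hr c => by_contra fun e => h ⟨r, hr, h1 r hr c, e⟩),
      isDPiGroup_triv (.inr fun r hr c => by_contra fun e => h ⟨r, hr, h2 r hr c, e⟩)⟩

theorem cpi_of_epi_alt (h : IsEPiGroup π (alternatingGroup α)) :
    IsCPiGroup π (alternatingGroup α) ∧ IsCPiGroup π (Perm α) := by
  rcases hall_cases α π with h1 | ⟨h1, h2⟩
  · exact ⟨isCPiGroup_of_D h1.2, isCPiGroup_of_D h1.1⟩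
  refine ⟨⟨h, fun H K hH hK => ?_⟩, ?_, fun H K hH hK => ?_⟩
  · obtain ⟨hn, s, rfl, hs⟩ := hall_struct_alt hH h1 h2
    obtain ⟨-, t, rfl, ht⟩ := hall_struct_alt hK h1 h2
    obtain ⟨g, rfl⟩ := exists_alt_smul hn (hs.unique ht)
    exact ⟨g, Subgroup.ext fun x => by
      rw [pairStab_smul, mem_subgroupOf, Subgroup.mem_map_equiv, Subgroup.mem_map_equiv]; rfl⟩
  · obtain ⟨M, hM⟩ := h
    obtain ⟨hn, s, -, hs⟩ := hall_struct_alt hM h1 h2
    exact ⟨_, isPiHall_pairStab hs hn⟩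
  · have hn := (hall_struct_alt (hall_alt hH) h1 h2).1
    obtain ⟨s, a, hs⟩ := hall_struct hH.1 (hall_alt hH).2 h1 h2
    obtain ⟨t, b, ht⟩ := hall_struct hK.1 (hall_alt hK).2 h1 h2
    obtain ⟨g, rfl⟩ := exists_alt_smul hn (hs.unique ht)
    exact ⟨g, by rw [← eq_of_isPiHall_le hH a (isPiHall_pairStab hs hn).1,
      ← eq_of_isPiHall_le hK b (isPiHall_pairStab ht hn).1, pairStab_smul]⟩

theorem not_isDPiGroup_alt {n : ℕ} (hn : 5 ≤ n)
    (h1 : ∃ r s : ℕ, r.Prime ∧ s.Prime ∧ r ≠ s ∧ r ∈ π ∧ s ∈ π ∧ r ≤ n ∧ s ≤ n)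
    (h2 : ∃ r : ℕ, r.Prime ∧ r ≤ n ∧ r ∉ π) : ¬ IsDPiGroup π (alternatingGroup (Fin n)) := fun h => by
  obtain ⟨M, hM⟩ := Agent.S3878.eOfD _ _ h
  obtain ⟨-, s, rfl, hs⟩ := hall_struct_alt hM (by rwa [Fintype.card_fin]) (by rwa [Fintype.card_fin])
  have key : ∀ U : Subgroup (Perm (Fin n)), IsPiSubgroup π U →
      ∃ t, #t = #s ∧ ∀ g ∈ U, Perm.sign g = 1 → g • t = t ∨ g • t = tᶜ := fun U hU => by
    obtain ⟨K, h3, hK⟩ := Finite.exists_le_maximal (show IsPiSubgroup π (U.subgroupOf (alternatingGroup _)) from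
      fun p hp e => hU p hp (e.trans (by
        rw [← card_map_of_injective (subtype_injective _)]; exact card_dvd_of_le (map_comap_le _ _))))
    obtain ⟨g, rfl⟩ := h _ K ⟨hM.1, fun _ hK hle => (eq_of_isPiHall_le hM hle hK).le⟩ hK
    refine ⟨g.1 • s, card_smul_finset _ _, fun x hx e => ?_⟩
    exact (pairStab_smul g.1 s).ge (Subgroup.mem_map_equiv.2 (Subgroup.mem_map_equiv.1
      (h3 (show (⟨x, e⟩ : alternatingGroup _) ∈ _ from hx)) :))
  rw [Fintype.card_fin] at hs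
  rcases hs with ⟨h3, h4, h5⟩ | ⟨h3, h4⟩
  · obtain ⟨a, b, c, d, h9⟩ : ∃ a b c d : Fin n, a ≠ b ∧ a ≠ c ∧ a ≠ d ∧ b ≠ c ∧ b ≠ d ∧ c ≠ d :=
      ⟨⟨0, by omega⟩, ⟨1, by omega⟩, ⟨2, by omega⟩, ⟨3, by omega⟩, by simp⟩
    have h6 := (pairStab {a, b}).card_mul_index
    rw [index_pairStab.1 (by rw [card_pair h9.1, Fintype.card_fin]; omega), Nat.card_perm, card_pair h9.1,
      Nat.card_eq_fintype_card (α := Fin _), Fintype.card_fin] at h6
    have h7 := Nat.choose_mul_factorial_mul_factorial (show 2 ≤ n by omega)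
    rw [← h6, mul_assoc, mul_comm, Nat.mul_left_inj (Nat.choose_pos (by omega)).ne'] at h7
    obtain ⟨t, ht, h8⟩ := key (pairStab {a, b}) fun p hp e => by
      have := (hp.dvd_mul.1 (h7 ▸ e)).imp hp.dvd_factorial.1 hp.dvd_factorial.1
      exact (h4 p hp (by omega)).2 (by omega)
    obtain ⟨z, rfl⟩ := card_eq_one.1 (ht.trans h5)
    have h10 : ∀ w, a ≠ w → b ≠ w → c ≠ w → swap a b (swap c w z) = z := fun w e1 e2 e3 => by
      refine singleton_injective ((h8 (swap a b * swap c w) (.inl ?_) (by simp [e3, h9.1])).resolve_right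
        fun e => ?_)
      · simp [smul_finset_insert, swap_apply_of_ne_of_ne h9.2.1 e1, swap_apply_of_ne_of_ne h9.2.2.2.1 e2, pair_comm]
      · have := congrArg card e
        rw [card_smul_finset, card_compl, Fintype.card_fin, card_singleton] at this
        omega
    have := h10 d h9.2.2.1 h9.2.2.2.2.1 h9.2.2.2.2.2
    have := h10 z
    grind
  have aux : ∀ σ : Perm (Fin n), σ ^ 2 = 1 → #σ.support = 6 → IsPiSubgroup π (centralizer {σ}) :=
    fun σ a b p hp e => by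
      have := Fact.mk Nat.prime_two
      have h5 := Perm.cycleType_of_pow_prime_eq_one a
      have h6 := σ.sum_cycleType
      rw [h5, Multiset.sum_replicate, smul_eq_mul, b] at h6
      rw [Perm.nat_card_centralizer, h5, show σ.cycleType.card = 3 by omega] at e
      have h7 : p ∣ 6 ^ 5 := e.trans (by rcases h3 with ⟨rfl, -⟩ | ⟨rfl, -⟩ <;> decide)
      have h8 := hp.dvd_of_dvd_pow h7
      have := Nat.le_of_dvd (by norm_num) h8
      refine (h4 p hp (by omega)).2 ?_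
      interval_cases p <;> first | omega | norm_num at hp
  rcases h3 with ⟨rfl, h3⟩ | ⟨rfl, h3⟩
  all_goals
    obtain ⟨t, ht, h5⟩ := key _ (aux (swap 0 1 * swap 2 3 * swap 4 5) (by decide) (by decide))
    have a := h5 (swap 0 2 * swap 2 4 * swap 1 3 * swap 3 5) (mem_centralizer_singleton_iff.2 (by decide)) (by decide)
    have b := h5 (swap 0 2 * swap 2 5 * swap 1 3 * swap 3 4) (mem_centralizer_singleton_iff.2 (by decide)) (by decide)
    rw [h3] at ht
    clear h5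
    revert t
    decide +kernel

end CfsgLib.SymSub
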