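import Mathlib
import Cfsg.Agent.Lib.SolvStruct.NilParts
import Cfsg.Agent.Lib.Perm.JordanPrime
import Cfsg.Agent.Lib.SymSub.Abel

/-!
# Nilpotent subgroups of largest order in symmetric and alternating groups
-/

set_option autoImplicit false

namespace CfsgLib.SymSub

open Equiv MulAction Subgroup CfsgLib.Core CfsgLib.SolvStruct
open scoped Nat

universe u v

section core

variable {G : Type u} [Group G] {α : Type v} [MulAction G α]

/-- The action of `A` on the orbits of a subgroup `B` it centralizes. -/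
@[reducible] def quotAct (α : Type v) [MulAction G α] {A B : Subgroup G}
    (h : A ≤ centralizer (B : Set G)) : MulAction A (orbitRel.Quotient B α) where
  smul a := Quotient.map' (a • ·) (by
    rintro _ y ⟨b, rfl⟩
    exact ⟨b, by simp only [Subgroup.smul_def, ← mul_smul, h a.2 b b.2]⟩)
  one_smul x := Quotient.inductionOn' x fun x => congrArg Quotient.mk'' (one_smul _ x)
  mul_smul a b x := Quotient.inductionOn' x fun x => congrArg Quotient.mk'' (mul_smul a b x)

theorem smul_eq_of_mem_orbit {A B : Subgroup G} (h : A ≤ centralizer (B : Set G))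
    (hc : (Nat.card A).Coprime (Nat.card B)) {a : A} {x : α} (hx : a • x ∈ orbit B x) : a • x = x := by
  obtain ⟨b, hb⟩ := hx
  have h1 : ∀ k : ℕ, a ^ k • x = b ^ k • x := fun k => by
    induction k with
    | zero => simp
    | succ k ih =>
      rw [pow_succ', mul_smul, ih, pow_succ, mul_smul, show b • x = a • x from hb]
      simp only [Subgroup.smul_def, ← mul_smul, h a.2 _ (b ^ k).2]
  have h2 : a ^ Nat.card B ∈ stabilizer A x := by
    rw [mem_stabilizer_iff, h1, pow_card_eq_one', one_smul]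
  obtain ⟨k, hk⟩ := exists_pow_eq_self_of_coprime (x := a)
    (hc.symm.coprime_dvd_right (orderOf_dvd_natCard a))
  exact mem_stabilizer_iff.1 (hk ▸ pow_mem h2 k)

theorem quotAct_faithful [FaithfulSMul G α] {A B : Subgroup G} (h : A ≤ centralizer (B : Set G))
    (hc : (Nat.card A).Coprime (Nat.card B)) :
    letI := quotAct α h; FaithfulSMul A (orbitRel.Quotient B α) :=
  letI := quotAct α h
  ⟨fun {a b} H => inv_mul_eq_one.1 (eq_of_smul_eq_smul fun x : α => (smul_eq_of_mem_orbit h hc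
    (Quotient.exact' (show (a⁻¹ * b) • (Quotient.mk'' x : orbitRel.Quotient B α) = Quotient.mk'' x by
      rw [mul_smul, ← H, inv_smul_smul]))).trans (one_smul _ x).symm)⟩

variable (G α) in
/-- The moved points. -/
def mov : Set α := {x | ∃ g : G, g • x ≠ x}

theorem ncard_mov_quot [Finite α] {A B : Subgroup G} (h : A ≤ centralizer (B : Set G)) :
    letI := quotAct α h
    2 * (mov A (orbitRel.Quotient B α)).ncard ≤
      2 * (mov A α \ mov B α).ncard + (mov A α ∩ mov B α).ncard := by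
  classical
  let _ := quotAct α h
  have h1 : mov A (orbitRel.Quotient B α) ⊆
      Quotient.mk'' '' (mov A α \ mov B α) ∪ Quotient.mk'' '' (mov A α ∩ mov B α) := by
    rw [← Set.image_union, Set.sdiff_union_inter]
    rintro ⟨x⟩ ⟨a, ha⟩
    exact ⟨x, ⟨a, fun e => ha (congrArg Quotient.mk'' e)⟩, rfl⟩
  have h2 := (Set.ncard_le_ncard h1).trans (Set.ncard_union_le _ _)
  have h3 := Set.ncard_image_le (f := (Quotient.mk'' : α → orbitRel.Quotient B α))
    (s := mov A α \ mov B α)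
  have h4 := Finset.mul_card_image_le_card (f := (Quotient.mk'' : α → orbitRel.Quotient B α))
    (Set.toFinite (mov A α ∩ mov B α)).toFinset 2 fun ω hω => by
      obtain ⟨x, hx, rfl⟩ := Finset.mem_image.1 hω
      obtain ⟨⟨a, ha⟩, b, hb⟩ := (Set.Finite.mem_toFinset _).1 hx
      refine Finset.one_lt_card.2 ⟨x, by simpa using (Set.Finite.mem_toFinset _).1 hx, b • x, ?_, hb.symm⟩
      refine Finset.mem_filter.2 ⟨(Set.Finite.mem_toFinset _).2 ⟨⟨a, fun e => ha ?_⟩, b⁻¹, ?_⟩,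
        Quotient.sound' (mem_orbit x b)⟩
      · refine smul_left_cancel b (Eq.trans ?_ e)
        simp only [Subgroup.smul_def, ← mul_smul, h a.2 b b.2]
      · rw [inv_smul_smul]; exact hb.symm
  rw [← Set.ncard_coe_finset, ← Set.ncard_coe_finset, Finset.coe_image, Set.Finite.coe_toFinset] at h4
  omega

theorem ncard_mov_add [Finite α] {A B : Subgroup G} (h : A ≤ centralizer (B : Set G))
    (h' : B ≤ centralizer (A : Set G)) :
    letI := quotAct α h; letI := quotAct α h'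
    (mov A (orbitRel.Quotient B α)).ncard + (mov B (orbitRel.Quotient A α)).ncard ≤
      (mov G α).ncard := by
  have h1 := ncard_mov_quot (α := α) h
  have h2 := ncard_mov_quot (α := α) h'
  have h3 := Set.ncard_le_ncard (s := mov A α ∪ mov B α) (t := mov G α) (by
    rintro x (⟨a, ha⟩ | ⟨a, ha⟩) <;> exact ⟨a, ha⟩)
  have h4 := Set.ncard_union_add_ncard_inter (mov A α) (mov B α)
  have h5 := Set.ncard_inter_add_ncard_sdiff_eq_ncard (mov A α) (mov B α)
  have h6 := Set.ncard_inter_add_ncard_sdiff_eq_ncard (mov B α) (mov A α)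
  rw [Set.inter_comm] at h2 h6
  omega

theorem card_dvd_factorial_mov [Finite α] [FaithfulSMul G α] : Nat.card G ∣ (mov G α).ncard ! := by
  classical
  have := Fintype.ofFinite α
  rw [Nat.card_congr (MonoidHom.ofInjective (toPerm_injective (α := G) (β := α)) :
    G ≃* (toPermHom G α).range).toEquiv, Set.ncard_eq_toFinset_card _]
  refine Perm.card_dvd_factorial_of_support _ _ ?_
  rintro _ ⟨g, rfl⟩ x hx
  exact not_not.1 fun h => hx ((Set.Finite.mem_toFinset _).2 ⟨g, h⟩)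

theorem exists_split [Finite G] {N : Subgroup G} (hN : Group.IsNilpotent N) {p : ℕ} (hp : p.Prime) :
    ∃ P Q : Subgroup G, IsPGroup p P ∧ (Nat.card Q).Coprime p ∧ (Nat.card P).Coprime (Nat.card Q) ∧
      Nat.card P * Nat.card Q = Nat.card N ∧ P ≤ centralizer (Q : Set G) ∧ P ⊔ Q = N := by
  have : Fact p.Prime := ⟨hp⟩
  refine ⟨sylP p N, sylQ p N, isPGroup_sylP p N, coprime_card_sylQ p N, ?_, ?_,
    le_centralizer_iff.1 (sylQ_le_centralizer hN hp (sylP_le p N) (isPGroup_sylP p N)),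
    sylP_sup_sylQ hN hp⟩
  · obtain ⟨k, hk⟩ := (isPGroup_sylP p N).exists_card_eq
    exact hk ▸ (coprime_card_sylQ p N).symm.pow_left k
  · rw [← relIndex_sylQ hN hp, mul_comm, card_mul_relIndex_of_le (sylQ_le p N)]

theorem core {e n : ℕ} {f : ℕ → ℕ} {π : ℕ → Prop} (h1 : ∀ a ≤ n, 1 ≤ f a)
    (hf : ∀ a b, a + b ≤ n → f a * f b ≤ f (a + b))
    (hp : ∀ p k r, p.Prime → π p → r ≤ n → p ^ k ∣ r ! → (p ^ k) ^ e ≤ f r) (c : ℕ) :
    ∀ (G : Type u) [Group G] [Finite G] [Group.IsNilpotent G] (α : Type v) [MulAction G α] [Finite α]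
      [FaithfulSMul G α], Nat.card G = c → (∀ p, p.Prime → p ∣ c → π p) →
        ∀ m ≤ n, (mov G α).ncard ≤ m → c ^ e ≤ f m := by
  induction c using Nat.strong_induction_on with
  | _ c ih =>
  intro G _ _ _ α _ _ _ hc hπ m hm h
  by_cases h0 : c = 1
  · simpa [h0] using h1 m hm
  obtain ⟨p, hp1, hp2⟩ := Nat.exists_prime_and_dvd h0
  have : Fact p.Prime := ⟨hp1⟩
  obtain ⟨P, Q, a1, a2, a3, a4, a5, -⟩ := exists_split (N := ⊤) (G := G) inferInstance hp1
  rw [card_top, hc] at a4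
  have a6 := le_centralizer_iff.1 a5
  have h2 := ncard_mov_add (α := α) a5 a6
  let _ := quotAct α a5
  let _ := quotAct α a6
  have := quotAct_faithful (α := α) a5 a3
  have := quotAct_faithful (α := α) a6 a3.symm
  obtain ⟨k, hk⟩ := a1.exists_card_eq
  have h3 := hp p k _ hp1 (hπ p hp1 hp2) (by omega)
    (hk ▸ card_dvd_factorial_mov (G := P) (α := orbitRel.Quotient Q α))
  have h4 := ih (Nat.card Q) (lt_of_le_of_ne (Nat.le_of_dvd (hc ▸ Nat.card_pos) ⟨_, a4.symm.trans
    (mul_comm _ _)⟩) fun e => hp1.one_lt.ne' (Nat.eq_one_of_dvd_coprimes a2 (e ▸ hp2) dvd_rfl)) Q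
      (orbitRel.Quotient P α) rfl (fun r h h' => hπ r h (a4 ▸ h'.mul_left _))
      (m - (mov P (orbitRel.Quotient Q α)).ncard) (by omega) (by omega)
  rw [← a4, hk, mul_pow]
  refine (Nat.mul_le_mul h3 h4).trans ((hf _ _ (by omega)).trans_eq ?_)
  congr 1
  omega

end core

/-! ### Numerics -/

/-- The exponent of `2` in `n!`. -/
def v2 (n : ℕ) : ℕ := padicValNat 2 n !

/-- The largest order of a nilpotent subgroup of `S_n`. -/
def gn (n : ℕ) : ℕ := if n % 4 = 3 then 3 * 2 ^ v2 (n - 3) else 2 ^ v2 n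

theorem v2_rec (n : ℕ) : v2 n = n / 2 + v2 (n / 2) := by
  conv_lhs => rw [← Nat.div_add_mod n 2]
  rw [v2, padicValNat_factorial_mul_add _ (Nat.mod_lt n two_pos), padicValNat_factorial_mul, add_comm, v2]

theorem v2_rec' (n : ℕ) : v2 n = n / 2 + n / 4 + v2 (n / 4) := by
  rw [v2_rec, v2_rec (n / 2), Nat.div_div_eq_div_mul, add_assoc]

theorem le_v2 {k n : ℕ} : 2 ^ k ∣ n ! ↔ k ≤ v2 n := padicValNat_dvd_iff_le n.factorial_ne_zero

theorem v2_add (a b : ℕ) : v2 a + v2 b ≤ v2 (a + b) :=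
  le_v2.1 (pow_add 2 _ _ ▸ (mul_dvd_mul (le_v2.2 le_rfl) (le_v2.2 le_rfl)).trans
    (Nat.factorial_mul_factorial_dvd_factorial_add a b))

theorem v2_mono {a b : ℕ} (h : a ≤ b) : v2 a ≤ v2 b :=
  le_v2.1 ((le_v2.2 le_rfl).trans (Nat.factorial_dvd_factorial h))

theorem v2_small {n : ℕ} (h : n < 32) : v2 n = n / 2 + n / 4 + n / 8 + n / 16 := by
  rw [v2_rec', v2_rec' (n / 4), show n / 4 / 4 = n / 16 by omega, v2_rec (n / 16),
    show n / 16 / 2 = 0 by omega, show v2 0 = 0 by simp [v2]]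
  omega

theorem pow_le_gn (n : ℕ) : 2 ^ v2 n ≤ gn n := by
  unfold gn
  split_ifs with h
  · rw [show v2 n = v2 (n - 3) + 1 by
      rw [v2_rec', v2_rec' (n - 3), show (n - 3) / 4 = n / 4 by omega]; omega, pow_succ]
    omega
  · rfl

theorem three_mul_le_gn (n : ℕ) : 3 * 2 ^ v2 n ≤ gn (n + 3) := by
  unfold gn
  split_ifs with h
  · rfl
  · have h1 := v2_mono (show n / 4 ≤ (n + 3) / 4 by omega)
    have h2 : 2 ^ (v2 n + 2) ≤ 2 ^ v2 (n + 3) :=
      Nat.pow_le_pow_right two_pos (by rw [v2_rec', v2_rec' (n + 3)]; omega)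
    rw [pow_add] at h2
    omega

theorem gn_mul (a b : ℕ) : gn a * gn b ≤ gn (a + b) := by
  have key : ∀ a b, 2 ^ v2 a * 2 ^ v2 b ≤ 2 ^ v2 (a + b) := fun a b =>
    pow_add 2 _ _ ▸ Nat.pow_le_pow_right two_pos (v2_add a b)
  have key' : ∀ a b, 3 * 2 ^ v2 a * 2 ^ v2 b ≤ gn (a + 3 + b) := fun a b => by
    rw [mul_assoc, add_right_comm]
    exact (Nat.mul_le_mul_left 3 (key a b)).trans (three_mul_le_gn _)
  rw [gn, gn]
  split_ifs with h1 h2 h2
  · obtain ⟨a, rfl⟩ : ∃ c, a = c + 3 := ⟨a - 3, by omega⟩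
    obtain ⟨b, rfl⟩ : ∃ c, b = c + 3 := ⟨b - 3, by omega⟩
    refine le_trans ?_ (pow_le_gn _)
    have h3 := key (a + b) 6
    have h4 := key a b
    rw [v2_small (n := 6) (by omega)] at h3
    rw [show a + 3 + (b + 3) = a + b + 6 by ring, Nat.add_sub_cancel, Nat.add_sub_cancel,
      mul_mul_mul_comm]
    omega
  · obtain ⟨a, rfl⟩ : ∃ c, a = c + 3 := ⟨a - 3, by omega⟩
    exact key' a b
  · obtain ⟨b, rfl⟩ : ∃ c, b = c + 3 := ⟨b - 3, by omega⟩
    rw [mul_comm, add_comm a]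
    exact key' b a
  · exact (key a b).trans (pow_le_gn _)

theorem two_pow_le (n : ℕ) : 2 ^ n ≤ (n + 1) * 2 ^ v2 n := by
  induction n using Nat.strong_induction_on with
  | _ n ih =>
  rcases Nat.eq_zero_or_pos n with rfl | h
  · simp [Nat.one_le_two_pow]
  have h1 := Nat.mul_le_mul_left (2 ^ (n / 2)) (ih (n / 2) (by omega))
  rw [v2_rec, pow_add]
  rcases Nat.mod_two_eq_zero_or_one n with h2 | h2
  · calc 2 ^ n = 2 ^ (n / 2) * 2 ^ (n / 2) := by rw [← pow_add]; congr 1; omega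
      _ ≤ (n / 2 + 1) * (2 ^ (n / 2) * 2 ^ v2 (n / 2)) := h1.trans_eq (by ring)
      _ ≤ _ := Nat.mul_le_mul_right _ (by omega)
  · calc 2 ^ n = 2 * (2 ^ (n / 2) * 2 ^ (n / 2)) := by rw [← pow_add, ← pow_succ']; congr 1; omega
      _ ≤ (2 * (n / 2 + 1)) * (2 ^ (n / 2) * 2 ^ v2 (n / 2)) :=
        (Nat.mul_le_mul_left 2 h1).trans_eq (by ring)
      _ ≤ _ := Nat.mul_le_mul_right _ (by omega)

theorem two_mul_le_of_sq {x n : ℕ} (hn : 32 ≤ n) (h : x ^ 2 ≤ 3 ^ n) : 2 * x ≤ 2 ^ v2 n := by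
  have key : 4 * 3 ^ n * (n + 1) ^ 2 ≤ 4 ^ n := by
    clear h
    induction n, hn using Nat.le_induction with
    | base => norm_num
    | succ n hn ih =>
      have h1 : 3 * (n + 1 + 1) ^ 2 ≤ 4 * (n + 1) ^ 2 := by nlinarith
      have := Nat.mul_le_mul_left (4 * 3 ^ n) h1
      rw [pow_succ 3, pow_succ 4]; nlinarith
  have h1 := Nat.pow_le_pow_left (two_pow_le n) 2
  rw [← pow_mul, mul_comm n, pow_mul, mul_pow] at h1
  refine le_of_pow_le_pow_left₀ two_ne_zero (Nat.zero_le _) (Nat.le_of_mul_le_mul_right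
    (c := (n + 1) ^ 2) ?_ (by positivity))
  have := Nat.mul_le_mul_right (4 * (n + 1) ^ 2) h
  norm_num at h1
  nlinarith

theorem sq_le_of_odd {p k r : ℕ} (hp : p.Prime) (h2 : p ≠ 2) (h : p ^ k ∣ r !) : (p ^ k) ^ 2 ≤ 3 ^ r := by
  have : Fact p.Prime := ⟨hp⟩
  have h1 := (padicValNat_dvd_iff_le r.factorial_ne_zero).1 h
  have h3 := sub_one_mul_padicValNat_factorial (p := p) r
  obtain ⟨m, rfl⟩ : ∃ m, p = m + 3 := ⟨p - 3, by have := hp.two_le; omega⟩
  have h4 : (m + 3) ^ 2 ≤ 3 ^ (m + 2) := by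
    clear h h1 h3 hp h2 this
    induction m with
    | zero => norm_num
    | succ m ih =>
      have : (m + 1 + 3) ^ 2 ≤ 3 * (m + 3) ^ 2 := by ring_nf; omega
      rw [show 3 ^ (m + 1 + 2) = 3 ^ (m + 2) * 3 by ring]; omega
  rw [← pow_mul, mul_comm, pow_mul]
  refine (Nat.pow_le_pow_left h4 k).trans (pow_mul 3 _ _ ▸ Nat.pow_le_pow_right three_pos ?_)
  exact (Nat.mul_le_mul_left _ h1).trans (h3.le.trans (Nat.sub_le _ _))

/-- The largest odd order of a nilpotent subgroup of `S_n`, `n < 32`. -/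
def go (n : ℕ) : ℕ := [1, 1, 1, 3, 3, 5, 9, 9, 15, 81, 81, 81, 243, 243, 405, 729, 729, 1215, 6561, 6561,
  6561, 19683, 19683, 32805, 59049, 59049, 98415, 1594323, 1594323, 1594323, 4782969, 4782969].getD n 1

theorem go_facts : (∀ a < 32, 1 ≤ go a) ∧ (∀ a < 32, ∀ b < 32, a + b < 32 → go a * go b ≤ go (a + b)) ∧
    ∀ r < 32, ∀ p < 32, p % 2 = 1 → p ^ (r / p + r / p ^ 2 + r / p ^ 3) ≤ go r := by
  decide +kernel

theorem le_go {p k r : ℕ} (hp : p.Prime) (h2 : p ≠ 2) (hr : r < 32) (h : p ^ k ∣ r !) : p ^ k ≤ go r := by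
  have : Fact p.Prime := ⟨hp⟩
  have h3 : 3 ≤ p := by have := hp.two_le; omega
  have h1 := (padicValNat_dvd_iff_le r.factorial_ne_zero).1 h
  rw [padicValNat_factorial (b := 4) (Nat.log_lt_of_lt_pow' (by omega)
    (hr.trans_le (le_trans (by norm_num) (Nat.pow_le_pow_left h3 4))))] at h1
  simp only [Finset.sum_Ico_eq_sum_range, Finset.sum_range_succ, Finset.range_zero, Finset.sum_empty]
    at h1
  norm_num at h1
  by_cases h4 : p < 32
  · exact (Nat.pow_le_pow_right hp.pos h1).trans (go_facts.2.2 r hr p h4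
      (hp.eq_two_or_odd.resolve_left h2))
  · have h5 : ∀ i, r / p ^ (i + 1) = 0 := fun i => Nat.div_eq_of_lt
      (lt_of_lt_of_le (by omega) (Nat.le_self_pow i.succ_ne_zero p))
    have := h5 0
    rw [zero_add, pow_one] at this
    rw [this, h5, h5] at h1
    simpa [Nat.le_zero.1 h1] using go_facts.1 r hr

set_option synthInstance.maxSize 1000 in
theorem go_le_gn {n : ℕ} (h : n < 32) :
    go n ≤ gn n ∧ (2 ≤ n → n ≠ 3 → n ≠ 5 → n ≠ 6 → n ≠ 9 → 2 * go n ≤ gn n) := by
  rw [gn, v2_small h, v2_small (n := n - 3) (by omega)]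
  revert n
  decide +kernel

/-! ### The bounds -/

variable {α : Type v} [Fintype α] [DecidableEq α]

omit [DecidableEq α] in
theorem ncard_mov_le (N : Subgroup (Perm α)) : (mov N α).ncard ≤ Fintype.card α :=
  (Set.ncard_le_card _).trans_eq Nat.card_eq_fintype_card

omit [DecidableEq α] in
theorem card_le_gn {N : Subgroup (Perm α)} (hN : Group.IsNilpotent N) :
    Nat.card N ≤ gn (Fintype.card α) := by
  simpa using core (e := 1) (π := fun _ => True) (fun a _ => Nat.one_le_two_pow.trans (pow_le_gn a))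
    (fun a b _ => gn_mul a b) (fun p k r hp _ _ h => by
      rw [pow_one]
      by_cases h2 : p = 2
      · subst h2
        exact (Nat.pow_le_pow_right two_pos (le_v2.1 h)).trans (pow_le_gn r)
      rcases Nat.lt_or_ge r 32 with hr | hr
      · exact (le_go hp h2 hr h).trans (go_le_gn hr).1
      · have := (two_mul_le_of_sq hr (sq_le_of_odd hp h2 h)).trans (pow_le_gn r)
        omega) _ N α rfl (fun _ _ _ => trivial) _ le_rfl (ncard_mov_le N)

omit [DecidableEq α] in
theorem two_mul_card_le_of_odd {N : Subgroup (Perm α)} (hN : Group.IsNilpotent N)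
    (ho : (Nat.card N).Coprime 2) {n : ℕ} (hn : Fintype.card α = n) (h2 : 2 ≤ n) (h3 : n ≠ 3) (h5 : n ≠ 5)
    (h6 : n ≠ 6) (h9 : n ≠ 9) : 2 * Nat.card N ≤ gn n := by
  have hπ : ∀ p : ℕ, p.Prime → p ∣ Nat.card N → p ≠ 2 := by
    rintro _ - h rfl
    exact absurd (Nat.eq_one_of_dvd_coprimes ho h dvd_rfl) (by norm_num)
  rcases Nat.lt_or_ge n 32 with h | h
  · have := core (e := 1) (n := n) (π := (· ≠ 2)) (fun a _ => go_facts.1 a (by omega))
      (fun a b _ => go_facts.2.1 a (by omega) b (by omega) (by omega))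
      (fun p k r hp h2 _ h => (pow_one _).trans_le (le_go hp h2 (by omega) h)) _ N α rfl hπ _ le_rfl
      (hn ▸ ncard_mov_le N)
    rw [pow_one] at this
    have := (go_le_gn h).2 h2 h3 h5 h6 h9
    omega
  · exact (two_mul_le_of_sq h (core (e := 2) (n := n) (f := (3 ^ ·)) (π := (· ≠ 2))
      (fun a _ => Nat.one_le_pow _ _ three_pos) (fun a b _ => (pow_add 3 a b).ge)
      (fun p k r hp h2 _ h => sq_le_of_odd hp h2 h) _ N α rfl hπ _ le_rfl
      (hn ▸ ncard_mov_le N))).trans (pow_le_gn n)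

theorem apply_mem_orbit {Q : Subgroup (Perm α)} (ho : (Nat.card Q).Coprime 2)
    (hC : centralizer (Q : Set (Perm α)) ≤ alternatingGroup α) {x : Perm α}
    (hx : x ∈ centralizer (Q : Set (Perm α))) (y : α) : x y ∈ orbit Q y := by
  classical
  by_contra h
  have hq : ∀ q ∈ Q, ∀ z, q z ∈ orbit Q y ↔ z ∈ orbit Q y := fun q hq z => by
    rw [← orbit_eq_iff, ← orbit_eq_iff, orbit_eq_iff.2 (show q z ∈ _ from mem_orbit z (⟨q, hq⟩ : Q))]
  have hc : ∀ q ∈ Q, ∀ z, x (q z) = q (x z) := fun q hq z => (Perm.congr_fun (hx q hq) z).symm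
  have hc' : ∀ q ∈ Q, ∀ z, x⁻¹ (q z) = q (x⁻¹ z) := fun q hq z =>
    (Perm.congr_fun (inv_mem hx q hq) z).symm
  have h1 : ∀ z ∈ orbit Q y, x z ∉ orbit Q y := by
    rintro _ ⟨q, rfl⟩ h'
    exact h ((hq q q.2 _).1 (hc q q.2 y ▸ h'))
  let f : α → α := fun z => if z ∈ orbit Q y then x z else if x⁻¹ z ∈ orbit Q y then x⁻¹ z else z
  have hf : Function.Involutive f := fun z => by
    by_cases a : z ∈ orbit Q y
    · simp [f, a, h1 z a]
    · by_cases b : x⁻¹ z ∈ orbit Q y <;> simp only [f, a, b, if_true, if_false]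
      simp
  have h2 : hf.toPerm f ∈ centralizer (Q : Set (Perm α)) := fun q hq' => Equiv.ext fun z => by
    simp only [Perm.mul_apply, Function.Involutive.coe_toPerm, f, hq q hq', hc q hq', hc' q hq']
    split_ifs <;> rfl
  have h3 : (hf.toPerm f).support = (orbit Q y).toFinset ∪ (orbit Q y).toFinset.map x.toEmbedding := by
    ext z
    simp only [Perm.mem_support, Function.Involutive.coe_toPerm, f, Finset.mem_union, Set.mem_toFinset,
      Finset.mem_map_equiv]
    split_ifs with a b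
    · exact iff_of_true (fun e => h1 z a (e.symm ▸ a)) (Or.inl a)
    · exact iff_of_true (fun e => a (e ▸ b)) (Or.inr b)
    · exact iff_of_false (not_not.2 rfl) (not_or.2 ⟨a, b⟩)
  have h4 := Perm.sign_of_pow_two_eq_one (σ := hf.toPerm f) (Equiv.ext hf)
  rw [Perm.mem_alternatingGroup.1 (hC h2), Perm.card_fixedPoints, Perm.sum_cycleType,
    Nat.sub_sub_self (Finset.card_le_univ _), h3, Finset.card_union_of_disjoint (by
      rw [Finset.disjoint_right]
      intro z a b
      rw [Finset.mem_map_equiv, Set.mem_toFinset] at a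
      exact h1 _ a (by simpa using b)), Finset.card_map, ← two_mul, Nat.mul_div_cancel_left _ two_pos,
    Odd.neg_one_pow] at h4
  · simp at h4
  · rw [← Nat.coprime_two_right, ← Set.ncard_eq_toFinset_card', ← index_stabilizer]
    exact ho.coprime_dvd_left (index_dvd_card _)

omit [Fintype α] [DecidableEq α] in
theorem sup_facts {G : Type*} [Group G] [Finite G] {R Q : Subgroup G} (hR : Group.IsNilpotent R)
    (hQ : Group.IsNilpotent Q) (h : R ≤ centralizer (Q : Set G))
    (hc : (Nat.card R).Coprime (Nat.card Q)) :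
    Group.IsNilpotent (R ⊔ Q : Subgroup G) ∧ Nat.card (R ⊔ Q : Subgroup G) = Nat.card R * Nat.card Q :=
  ⟨isNilpotent_sup_of_le_normalizer (h.trans (centralizer_le_normalizer _))
    ((le_centralizer_iff.1 h).trans (centralizer_le_normalizer _)),
    card_sup_of_le_normalizer_of_disjoint (h.trans (centralizer_le_normalizer _))
      (disjoint_of_coprime_natCard hc).eq_bot⟩

theorem two_mul_card_le_gn {N : Subgroup (Perm α)} (hN : Group.IsNilpotent N)
    (hA : N ≤ alternatingGroup α) {n : ℕ} (hn : Fintype.card α = n) (h2 : 2 ≤ n) (h3 : n ≠ 3)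
    (h5 : n ≠ 5) (h6 : n ≠ 6) (h9 : n ≠ 9) : 2 * Nat.card N ≤ gn n := by
  obtain ⟨P, Q, a1, a2, a3, a4, a5, a6⟩ := exists_split hN Nat.prime_two
  have hQ : Group.IsNilpotent Q :=
    Group.nilpotent_of_mulEquiv (subgroupOfEquivOfLe (a6 ▸ le_sup_right : Q ≤ N))
  by_cases hC : centralizer (Q : Set (Perm α)) ≤ alternatingGroup α
  · have : P = ⊥ := (eq_bot_iff_forall _).2 fun x hx => Equiv.ext fun y =>
      smul_eq_of_mem_orbit a5 a3 (a := ⟨x, hx⟩) (apply_mem_orbit a2 hC (a5 hx) y)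
    rw [← a4, this, card_bot, one_mul]
    exact two_mul_card_le_of_odd hQ a2 hn h2 h3 h5 h6 h9
  obtain ⟨R, hR⟩ := (a1.comap_subtype (K := centralizer (Q : Set (Perm α)))).exists_le_sylow
  have hR' := R.isPGroup'.map (centralizer (Q : Set (Perm α))).subtype
  obtain ⟨k, hk⟩ := hR'.exists_card_eq
  obtain ⟨b1, b2⟩ := sup_facts hR'.isNilpotent hQ (map_subtype_le _) (hk ▸ a2.symm.pow_left k)
  have b3 : P < R.1.map (centralizer (Q : Set (Perm α))).subtype := by
    refine lt_of_le_of_ne (fun x hx => ⟨⟨x, a5 hx⟩, hR hx, rfl⟩) fun e => R.not_dvd_index ?_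
    have b4 : R.1 ≤ (alternatingGroup α).subgroupOf _ := fun x hx =>
      hA (a6 ▸ mem_sup_left (e ▸ mem_map_of_mem _ hx))
    refine dvd_trans ?_ (index_dvd_of_le b4)
    have : Nontrivial α := Fintype.one_lt_card_iff_nontrivial.1 (by omega)
    have b5 := relIndex_dvd_index_of_normal (alternatingGroup α) (centralizer (Q : Set (Perm α)))
    rw [alternatingGroup.index_eq_two, Nat.dvd_prime Nat.prime_two] at b5
    exact (b5.resolve_left fun h => hC (relIndex_eq_one.1 h)).symm.dvd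
  have b4 := card_le_gn b1
  obtain ⟨c, hc⟩ := card_dvd_of_le b3.le
  have b5 : c ≠ 1 := fun h => b3.ne (eq_of_le_of_card_ge b3.le (by rw [hc, h, mul_one]))
  have b6 : c ≠ 0 := fun h => Nat.card_pos.ne' (by rw [hc, h, mul_zero])
  rw [b2, hc, hn] at b4
  rw [← a4]
  refine le_trans ?_ b4
  rw [mul_right_comm, mul_comm 2]
  exact Nat.mul_le_mul_left _ (by omega)

theorem isThreeCycle_of {c : Perm α} (hc : orderOf c = 3) {n e : ℕ} (hn : Fintype.card α = n)
    (h3 : n % 4 = 3) (he : 2 ^ e ∣ Nat.card (centralizer {c})) (h : v2 (n - 3) ≤ e + 1) :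
    c.IsThreeCycle := by
  obtain ⟨j, hj⟩ := Perm.cycleType_prime_order (σ := c) (hc ▸ Nat.prime_three)
  have h1 := c.sum_cycleType_le
  rw [hc] at hj
  rw [Perm.nat_card_centralizer, hj, hn] at he
  rw [hj, hn] at h1
  simp only [Multiset.sum_replicate, smul_eq_mul, Multiset.prod_replicate, Multiset.toFinset_replicate,
    Nat.succ_ne_zero, if_false, Finset.prod_singleton, Multiset.count_replicate_self] at he h1
  rw [mul_right_comm] at he
  have h2 := le_v2.1 (((Nat.Coprime.pow e (j + 1) (by norm_num : Nat.Coprime 2 3)).dvd_of_dvd_mul_right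
    he).trans (Nat.factorial_mul_factorial_dvd_factorial_add _ _))
  rcases Nat.eq_zero_or_pos j with rfl | h0
  · exact hj
  have h4 := h2.trans (v2_mono (b := n - 4) (by omega))
  have h5 := v2_mono (show (n - 4) / 4 ≤ (n - 3) / 4 by omega)
  rw [v2_rec' (n - 4)] at h4
  rw [v2_rec' (n - 3)] at h
  omega

omit [Fintype α] [DecidableEq α] in
theorem conj_of_max {G : Type*} [Group G] [Finite G] {e : ℕ}
    (hb : ∀ N : Subgroup G, Group.IsNilpotent N → Nat.card N ≤ 3 * 2 ^ e)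
    (hc : ∀ c d : G, orderOf c = 3 → orderOf d = 3 → 2 ^ e ∣ Nat.card (centralizer {c}) →
      2 ^ e ∣ Nat.card (centralizer {d}) → IsConj c d) {N₁ N₂ : Subgroup G}
    (h1 : Group.IsNilpotent N₁) (h2 : Group.IsNilpotent N₂) (c1 : Nat.card N₁ = 3 * 2 ^ e)
    (c2 : Nat.card N₂ = 3 * 2 ^ e) : ∃ g : G, N₂ = N₁.map (MulAut.conj g).toMonoidHom := by
  have : Fact (Nat.Prime 3) := ⟨Nat.prime_three⟩
  have shape : ∀ N : Subgroup G, Group.IsNilpotent N → Nat.card N = 3 * 2 ^ e → ∃ (c : G) (P : Subgroup G),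
      orderOf c = 3 ∧ Nat.card P = 2 ^ e ∧ P ≤ centralizer {c} ∧ N = P ⊔ zpowers c := fun N h1 h2 => by
    obtain ⟨P, Q, a1, a2, -, a4, a5, a6⟩ := exists_split h1 Nat.prime_two
    obtain ⟨k, hk⟩ := a1.exists_card_eq
    have b1 : Nat.card Q = 3 := by
      rw [h2, hk] at a4
      refine Nat.dvd_antisymm ((a2.pow_right e).dvd_of_dvd_mul_right ⟨_, a4.symm.trans (mul_comm _ _)⟩)
        ((Nat.Coprime.pow_right k (by norm_num)).dvd_of_dvd_mul_left ⟨_, a4⟩)
    obtain ⟨c, hc⟩ := exists_prime_orderOf_dvd_card' (G := Q) 3 b1.symm.dvd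
    have b2 : zpowers c.1 = Q := eq_of_le_of_card_ge (zpowers_le.2 c.2) (by
      rw [Nat.card_zpowers, orderOf_coe, hc, b1])
    exact ⟨c, P, (orderOf_coe c).trans hc, by rw [b1, h2] at a4; omega,
      a5.trans (centralizer_le (Set.singleton_subset_iff.2 c.2)), by rw [b2, a6]⟩
  have syl : ∀ (c : G) (P : Subgroup G), orderOf c = 3 → Nat.card P = 2 ^ e → P ≤ centralizer {c} →
      ∃ S : Sylow 2 (centralizer ({c} : Set G)), S.1.map (Subgroup.subtype _) = P := fun c P a1 a2 a3 => by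
    obtain ⟨S, hS⟩ := ((IsPGroup.of_card a2).comap_subtype (K := centralizer {c})).exists_le_sylow
    have hS' := S.isPGroup'.map (centralizer ({c} : Set G)).subtype
    obtain ⟨k, hk⟩ := hS'.exists_card_eq
    obtain ⟨b1, b2⟩ := sup_facts hS'.isNilpotent (isNilpotent_subgroup_of_isMulCommutative (zpowers c))
      ((map_subtype_le _).trans (by rw [zpowers_eq_closure, centralizer_closure]))
      (by rw [hk, Nat.card_zpowers, a1]; exact Nat.Coprime.pow_left k (by norm_num))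
    have b3 := hb _ b1
    rw [b2, Nat.card_zpowers, a1] at b3
    exact ⟨S, (eq_of_le_of_card_ge (fun x hx => mem_map.2 ⟨⟨x, a3 hx⟩, hS hx, rfl⟩) (by omega)).symm⟩
  obtain ⟨c, P, a1, a2, a3, rfl⟩ := shape N₁ h1 c1
  obtain ⟨d, R, b1, b2, b3, rfl⟩ := shape N₂ h2 c2
  obtain ⟨g, rfl⟩ := isConj_iff.1 (hc c d a1 b1 (a2 ▸ card_dvd_of_le a3) (b2 ▸ card_dvd_of_le b3))
  obtain ⟨S, hS⟩ := syl (g * c * g⁻¹) (P.map (MulAut.conj g).toMonoidHom) b1
    ((card_map_of_injective (MulAut.conj g).injective).trans a2) (by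
      rintro _ ⟨x, hx, rfl⟩
      rw [mem_centralizer_singleton_iff]
      simpa [← mul_assoc] using by simpa [mul_assoc] using mem_centralizer_singleton_iff.1 (a3 hx))
  obtain ⟨T, rfl⟩ := syl _ R b1 b2 b3
  obtain ⟨k, rfl⟩ := exists_smul_eq (centralizer ({g * c * g⁻¹} : Set G)) S T
  refine ⟨k * g, ?_⟩
  rw [map_mul, MulAut.mul_def, show ∀ a b : MulAut G, (a.trans b).toMonoidHom =
    b.toMonoidHom.comp a.toMonoidHom from fun _ _ => rfl, ← map_map, Subgroup.map_sup, ← hS,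
    Subgroup.map_sup, MonoidHom.map_zpowers, MonoidHom.map_zpowers, map_map]
  congr 1
  · rw [Sylow.coe_subgroup_smul]
    exact (map_map _ _ (MulAut.conj k).toMonoidHom).trans rfl
  · congr 1
    exact (mul_inv_eq_iff_eq_mul.2 (mem_centralizer_singleton_iff.1 k.2)).symm

theorem card_sylow_perm {n : ℕ} (P : Sylow 2 (Perm (Fin n))) : Nat.card P = 2 ^ v2 n := by
  rw [P.card_eq_multiplicity, Nat.card_eq_fintype_card, Fintype.card_perm, Fintype.card_fin,
    Nat.factorization_def _ Nat.prime_two, v2]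

theorem card_sylow_alt {n : ℕ} (hn : 2 ≤ n) (P : Sylow 2 (alternatingGroup (Fin n))) :
    Nat.card P = 2 ^ (v2 n - 1) ∧ 1 ≤ v2 n := by
  have : Nontrivial (Fin n) := Fin.nontrivial_iff_two_le.2 hn
  have h := two_mul_nat_card_alternatingGroup (α := Fin n)
  rw [Nat.card_eq_fintype_card (α := Perm _), Fintype.card_perm, Fintype.card_fin] at h
  have h2 : v2 n = 1 + (Nat.card (alternatingGroup (Fin n))).factorization 2 := by
    rw [v2, ← h, padicValNat.mul two_ne_zero Nat.card_pos.ne', Nat.factorization_def _ Nat.prime_two]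
    simp
  rw [P.card_eq_multiplicity, h2]
  simp

/-- The cyclic group of order three in `S₃`. -/
def z3 : Multiplicative (ZMod 3) →* Perm (Fin 3) := toPermHom (Multiplicative (ZMod 3)) (ZMod 3)

theorem z3_facts : Function.Injective z3 ∧ ∀ x, Perm.sign (z3 x) = 1 := by
  decide

theorem exists_range {H G : Type*} [Group H] [Group G] [Finite H] (hH : IsPGroup 2 H)
    (f : H × Multiplicative (ZMod 3) →* G) (hf : Function.Injective f) : ∃ M : Subgroup G,
    Group.IsNilpotent M ∧ Nat.card M = 3 * Nat.card H ∧ Nonempty (M ≃* H × Multiplicative (ZMod 3)) := by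
  have := hH.isNilpotent
  refine ⟨f.range, Group.nilpotent_of_mulEquiv (MonoidHom.ofInjective hf), ?_, ⟨(MonoidHom.ofInjective hf).symm⟩⟩
  rw [← Nat.card_congr (MonoidHom.ofInjective hf).toEquiv, Nat.card_prod, mul_comm]
  simp

end CfsgLib.SymSub
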